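import Mathlib
import Cfsg.Agent.Lib.Glaub.Sub
import Cfsg.Agent.H4.Frob
import Cfsg.Agent.H4.BrauerBasic

/-!
# The Glauberman correspondence, cyclic case (lead): Fourier analysis on the acting group
-/

set_option autoImplicit false
set_option linter.style.haveILetI false

namespace Cfsg.Agent.Glaub

open Cfsg Cfsg.Agent.H4
open scoped ComplexConjugate

universe u

/-- Integers `m_j` (`j < n`) with `n ∑ m_j² - (∑ m_j)² ≤ n - 1` are all equal except possibly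
one, which differs from the others by `1`. -/
theorem lattice (n : ℕ) (m : ℕ → ℤ)
    (hN : (n : ℤ) * ∑ j ∈ Finset.range n, m j ^ 2 - (∑ j ∈ Finset.range n, m j) ^ 2 ≤ n - 1) :
    ∃ j₁ ∈ Finset.range n, ∃ t : ℤ, (t = 0 ∨ t = 1 ∨ t = -1) ∧
      ∀ j ∈ Finset.range n, j ≠ j₁ → m j = m j₁ + t := by
  classical
  set R := Finset.range n with hR
  let V : ℕ → ℤ := fun i => ∑ j ∈ R, (m j - m i) ^ 2
  have hV : ∑ i ∈ R, V i = 2 * ((n : ℤ) * ∑ j ∈ R, m j ^ 2 - (∑ j ∈ R, m j) ^ 2) := by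
    simp only [V]
    have hexp : ∀ i j, (m j - m i) ^ 2 = m j ^ 2 - 2 * (m i * m j) + m i ^ 2 := by
      intros; ring
    simp only [hexp, Finset.sum_add_distrib, Finset.sum_sub_distrib, Finset.sum_const,
      ← Finset.mul_sum, ← Finset.sum_mul, hR, Finset.card_range, nsmul_eq_mul]
    ring
  have hex : ∃ i₀ ∈ R, V i₀ ≤ 1 := by
    by_contra hcon
    push Not at hcon
    have h1 : ∑ _i ∈ R, (2 : ℤ) ≤ ∑ i ∈ R, V i :=
      Finset.sum_le_sum fun i hi => by have := hcon i hi; omega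
    rw [Finset.sum_const, hR, Finset.card_range, ← hR, hV] at h1
    simp only [nsmul_eq_mul] at h1
    linarith
  obtain ⟨i₀, hi₀, hVi₀⟩ := hex
  by_cases hall : ∀ j ∈ R, m j = m i₀
  · exact ⟨i₀, hi₀, 0, Or.inl rfl, fun j hj _ => by rw [hall j hj]; ring⟩
  · push Not at hall
    obtain ⟨j₁, hj₁, hne⟩ := hall
    have hpos : ∀ a : ℤ, a ≠ 0 → 1 ≤ a ^ 2 := by
      intro a ha
      have := sq_pos_of_ne_zero (a := a) ha
      omega
    have h1 : 1 ≤ (m j₁ - m i₀) ^ 2 := hpos _ (sub_ne_zero.mpr hne)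
    have hrest : ∀ j ∈ R, j ≠ j₁ → m j = m i₀ := by
      intro j hj hjne
      by_contra hne2
      have h2 : 1 ≤ (m j - m i₀) ^ 2 := hpos _ (sub_ne_zero.mpr hne2)
      have h3 : (m j - m i₀) ^ 2 + (m j₁ - m i₀) ^ 2 ≤ V i₀ := by
        have hsub : ({j, j₁} : Finset ℕ) ⊆ R := by
          intro a ha
          simp only [Finset.mem_insert, Finset.mem_singleton] at ha
          rcases ha with rfl | rfl <;> assumption
        calc (m j - m i₀) ^ 2 + (m j₁ - m i₀) ^ 2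
            = ∑ a ∈ ({j, j₁} : Finset ℕ), (m a - m i₀) ^ 2 := by rw [Finset.sum_pair hjne]
          _ ≤ V i₀ := Finset.sum_le_sum_of_subset_of_nonneg hsub (fun a _ _ => sq_nonneg _)
      omega
    have h3 : (m j₁ - m i₀) ^ 2 ≤ 1 := by
      have : (m j₁ - m i₀) ^ 2 ≤ V i₀ :=
        Finset.single_le_sum (f := fun a => (m a - m i₀) ^ 2) (fun a _ => sq_nonneg _) hj₁
      omega
    have h4 : (m i₀ - m j₁) ^ 2 = 1 := by
      have : (m j₁ - m i₀) ^ 2 = 1 := le_antisymm h3 h1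
      rw [← this]; ring
    have h5 : m i₀ - m j₁ = 1 ∨ m i₀ - m j₁ = -1 := sq_eq_one_iff.mp h4
    exact ⟨j₁, hj₁, m i₀ - m j₁, Or.inr h5, fun j hj hjne => by rw [hrest j hj hjne]; ring⟩

variable {Γ : Type u} [Group Γ] {G S : Subgroup Γ} {s : Γ}

namespace Setup

local notation "𝒞" => (G ⊓ Subgroup.centralizer (S : Set Γ) : Subgroup Γ)

theorem not_mem_G_of_ne_one (h : Setup G S s) {x : Γ} (hx : x ∈ S) (hx1 : x ≠ 1) : x ∉ G := by
  intro hxG
  have : x ∈ G ⊓ S := ⟨hxG, hx⟩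
  rw [h.inf_eq_bot, Subgroup.mem_bot] at this
  exact hx1 this

/-- Fourier inversion on `S`. -/
theorem fourier_inv [Finite Γ] [Fintype S] (h : Setup G S s) (ℓ : Γ →* ℂˣ)
    (hker : ∀ y, ℓ y = 1 ↔ y ∈ G) (hpow : ∀ y, ℓ y ^ Nat.card S = 1) (f : S → ℂ) (m : ℕ → ℤ)
    (hm : ∀ j ∈ Finset.range (Nat.card S),
      ∑ x : S, f x * conj (((ℓ x : ℂˣ) : ℂ) ^ j) = (Nat.card S : ℂ) * (m j : ℂ)) (x : S) :
    f x = ∑ j ∈ Finset.range (Nat.card S), (m j : ℂ) * ((ℓ x : ℂˣ) : ℂ) ^ j := by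
  classical
  have hn0 : (Nat.card S : ℂ) ≠ 0 := by
    have : 0 < Nat.card S := Nat.card_pos
    exact_mod_cast this.ne'
  apply mul_left_cancel₀ hn0
  rw [Finset.mul_sum]
  have h1 : ∀ j ∈ Finset.range (Nat.card S),
      (Nat.card S : ℂ) * ((m j : ℂ) * ((ℓ x : ℂˣ) : ℂ) ^ j) =
        ∑ y : S, f y * ((ℓ ((x : Γ) * (y : Γ)⁻¹) : ℂˣ) : ℂ) ^ j := by
    intro j hj
    rw [← mul_assoc, ← hm j hj, Finset.sum_mul]
    refine Finset.sum_congr rfl fun y _ => ?_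
    rw [map_pow, lin_conj ℓ hpow, map_mul ℓ, Units.val_mul, mul_pow]
    ring
  rw [Finset.sum_congr rfl h1, Finset.sum_comm]
  simp only [← Finset.mul_sum]
  have h2 : ∀ y : S, ∑ j ∈ Finset.range (Nat.card S), ((ℓ ((x : Γ) * (y : Γ)⁻¹) : ℂˣ) : ℂ) ^ j =
      if y = x then (Nat.card S : ℂ) else 0 := by
    intro y
    rw [sum_lin ℓ hker hpow]
    have hiff : ((x : Γ) * (y : Γ)⁻¹ ∈ G) ↔ y = x := by
      constructor
      · intro hmem
        have hmem2 : (x : Γ) * (y : Γ)⁻¹ ∈ G ⊓ S := ⟨hmem, S.mul_mem x.2 (S.inv_mem y.2)⟩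
        rw [h.inf_eq_bot, Subgroup.mem_bot, mul_inv_eq_one] at hmem2
        exact Subtype.ext hmem2.symm
      · rintro rfl
        rw [mul_inv_cancel]
        exact G.one_mem
    simp only [hiff]
  simp only [h2, mul_ite, mul_zero, Finset.sum_ite_eq', Finset.mem_univ, if_true]
  ring

/-- Parseval's identity on `S`. -/
theorem parseval [Finite Γ] [Fintype S] (h : Setup G S s) (ℓ : Γ →* ℂˣ)
    (hker : ∀ y, ℓ y = 1 ↔ y ∈ G) (hpow : ∀ y, ℓ y ^ Nat.card S = 1) (f : S → ℂ) (m : ℕ → ℤ)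
    (hm : ∀ j ∈ Finset.range (Nat.card S),
      ∑ x : S, f x * conj (((ℓ x : ℂˣ) : ℂ) ^ j) = (Nat.card S : ℂ) * (m j : ℂ)) :
    ∑ x : S, f x * conj (f x) =
      (Nat.card S : ℂ) * ∑ j ∈ Finset.range (Nat.card S), (m j : ℂ) ^ 2 := by
  have hinv := h.fourier_inv ℓ hker hpow f m hm
  have h1 : ∀ x : S, f x * conj (f x) =
      ∑ j ∈ Finset.range (Nat.card S), (m j : ℂ) * (f x * conj (((ℓ x : ℂˣ) : ℂ) ^ j)) := by
    intro x
    have hc : conj (f x) =
        ∑ j ∈ Finset.range (Nat.card S), (m j : ℂ) * conj (((ℓ x : ℂˣ) : ℂ) ^ j) := by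
      rw [hinv x, map_sum]
      refine Finset.sum_congr rfl fun j _ => ?_
      rw [map_mul, map_intCast]
    rw [hc, Finset.mul_sum]
    refine Finset.sum_congr rfl fun j _ => ?_
    ring
  rw [Finset.sum_congr rfl fun x _ => h1 x, Finset.sum_comm, Finset.mul_sum]
  refine Finset.sum_congr rfl fun j hj => ?_
  rw [← Finset.mul_sum, hm j hj]
  ring

/-- The structure of a class function on `S` with integral multiplicities and values of absolute
value `0` or `1` off the identity. -/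
theorem fourier_struct [Finite Γ] [Fintype S] (h : Setup G S s) (ℓ : Γ →* ℂˣ)
    (hker : ∀ y, ℓ y = 1 ↔ y ∈ G) (hpow : ∀ y, ℓ y ^ Nat.card S = 1) (f : S → ℂ) (m : ℕ → ℤ)
    (hm : ∀ j ∈ Finset.range (Nat.card S),
      ∑ x : S, f x * conj (((ℓ x : ℂˣ) : ℂ) ^ j) = (Nat.card S : ℂ) * (m j : ℂ))
    (hf : ∀ x : S, x ≠ 1 → f x = 0 ∨ f x * conj (f x) = 1) :
    ∃ j₁ ∈ Finset.range (Nat.card S), ∃ t : ℤ, (t = 0 ∨ t = 1 ∨ t = -1) ∧
      (∀ j ∈ Finset.range (Nat.card S), j ≠ j₁ → m j = m j₁ + t) ∧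
      (∀ x : S, x ≠ 1 → f x = -(t : ℂ) * ((ℓ x : ℂˣ) : ℂ) ^ j₁) ∧
      f 1 = (Nat.card S : ℂ) * ((m j₁ + t : ℤ) : ℂ) - (t : ℂ) := by
  classical
  have hinv := h.fourier_inv ℓ hker hpow f m hm
  have hpars := h.parseval ℓ hker hpow f m hm
  have hf1 : f 1 = ∑ j ∈ Finset.range (Nat.card S), (m j : ℂ) := by
    rw [hinv 1]
    refine Finset.sum_congr rfl fun j _ => ?_
    simp
  -- the number of non-identity elements where `f` does not vanish
  have hsplit : ∑ x : S, f x * conj (f x) =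
      f 1 * conj (f 1) + ∑ x ∈ Finset.univ.erase (1 : S), f x * conj (f x) :=
    (Finset.add_sum_erase Finset.univ (fun x => f x * conj (f x)) (Finset.mem_univ 1)).symm
  have hk : ∑ x ∈ Finset.univ.erase (1 : S), f x * conj (f x) =
      (((Finset.univ.erase (1 : S)).filter (fun x => f x ≠ 0)).card : ℂ) := by
    rw [Finset.card_filter]
    push_cast
    refine Finset.sum_congr rfl fun x hx => ?_
    have hx1 : x ≠ 1 := Finset.ne_of_mem_erase hx
    rcases hf x hx1 with h0 | h1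
    · simp [h0]
    · have hne : f x ≠ 0 := by
        intro h0
        rw [h0, zero_mul] at h1
        exact zero_ne_one h1
      simp [hne, h1]
  have hkle : ((Finset.univ.erase (1 : S)).filter (fun x => f x ≠ 0)).card ≤ Nat.card S - 1 := by
    refine (Finset.card_filter_le _ _).trans ?_
    rw [Finset.card_erase_of_mem (Finset.mem_univ _), Finset.card_univ,
      Nat.card_eq_fintype_card]
  have hn1 : 1 ≤ Nat.card S := Nat.card_pos
  have hN : (Nat.card S : ℤ) * ∑ j ∈ Finset.range (Nat.card S), m j ^ 2 - (∑ j ∈ Finset.range (Nat.card S), m j) ^ 2 ≤ Nat.card S - 1 := by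
    have hc : ((Nat.card S : ℤ) * ∑ j ∈ Finset.range (Nat.card S), m j ^ 2 - (∑ j ∈ Finset.range (Nat.card S), m j) ^ 2 : ℤ) =
        (((Finset.univ.erase (1 : S)).filter (fun x => f x ≠ 0)).card : ℤ) := by
      have hc' : (((Nat.card S : ℤ) * ∑ j ∈ Finset.range (Nat.card S), m j ^ 2 -
          (∑ j ∈ Finset.range (Nat.card S), m j) ^ 2 : ℤ) : ℂ) =
          (((Finset.univ.erase (1 : S)).filter (fun x => f x ≠ 0)).card : ℂ) := by
        rw [← hk]
        have h3 : conj (f 1) = f 1 := by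
          rw [hf1, map_sum]
          exact Finset.sum_congr rfl fun j _ => map_intCast _ _
        rw [hsplit, h3, hf1] at hpars
        push_cast
        linear_combination (-1 : ℂ) * hpars
      exact_mod_cast hc'
    rw [hc]
    have : ((Finset.univ.erase (1 : S)).filter (fun x => f x ≠ 0)).card ≤ Nat.card S - 1 := hkle
    omega
  obtain ⟨j₁, hj₁, t, ht, hrest⟩ := lattice (Nat.card S) m hN
  have hmj : ∀ j ∈ Finset.range (Nat.card S), (m j : ℂ) = ((m j₁ + t : ℤ) : ℂ) - if j = j₁ then (t : ℂ) else 0 := by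
    intro j hj
    by_cases hjj : j = j₁
    · subst hjj
      simp
    · rw [hrest j hj hjj]
      simp [hjj]
  refine ⟨j₁, hj₁, t, ht, hrest, ?_, ?_⟩
  · intro x hx1
    have hxG : (x : Γ) ∉ G := h.not_mem_G_of_ne_one x.2 (fun h1 => hx1 (Subtype.ext h1))
    rw [hinv x]
    have h4 : ∀ j ∈ Finset.range (Nat.card S), (m j : ℂ) * ((ℓ x : ℂˣ) : ℂ) ^ j =
        ((m j₁ + t : ℤ) : ℂ) * ((ℓ x : ℂˣ) : ℂ) ^ j -
          if j = j₁ then (t : ℂ) * ((ℓ x : ℂˣ) : ℂ) ^ j else 0 := by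
      intro j hj
      rw [hmj j hj]
      split_ifs <;> ring
    rw [Finset.sum_congr rfl h4, Finset.sum_sub_distrib, ← Finset.mul_sum,
      sum_lin ℓ hker hpow, if_neg hxG, Finset.sum_ite_eq', if_pos hj₁]
    ring
  · rw [hf1, Finset.sum_congr rfl hmj, Finset.sum_sub_distrib, Finset.sum_const,
      Finset.card_range, Finset.sum_ite_eq', if_pos hj₁, nsmul_eq_mul]

/-- Multiplicities in the restriction to `C × S` are natural numbers. -/
theorem mult_nat [Fintype Γ] [Fintype 𝒞] [Fintype S] (h : Setup G S s) (ℓ : Γ →* ℂˣ)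
    (hker : ∀ y, ℓ y = 1 ↔ y ∈ G) {X : Γ → ℂ} (hX : IsCharacter Γ X) (γ : IrrCharacter 𝒞)
    (j : ℕ) :
    ∃ k : ℕ, ∑ x : S, classInner (fun c : 𝒞 => X ((c : Γ) * x)) γ.1 *
        conj (((ℓ x : ℂˣ) : ℂ) ^ j) = (Nat.card S : ℂ) * (k : ℂ) := by
  classical
  have hcomm : ∀ (c : 𝒞) (x : S), Commute ((𝒞).subtype c) (S.subtype x) := by
    intro c x
    exact ((Subgroup.mem_centralizer_iff.mp c.2.2) (x : Γ) x.2).symm
  let φ : 𝒞 × S →* Γ := MonoidHom.noncommCoprod (𝒞).subtype S.subtype hcomm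
  have hφ : ∀ p : 𝒞 × S, φ p = (p.1 : Γ) * (p.2 : Γ) := fun p => rfl
  have hΨ : IsCharacter (𝒞 × S) (fun p => X (φ p)) := isCharacter_comp φ hX
  have hγ : IsIrrCharacter (𝒞 × S) (fun p => γ.1 p.1) :=
    isIrrCharacter_comp_surjective (MonoidHom.fst 𝒞 S) (fun c => ⟨(c, 1), rfl⟩) γ.2
  have hΘ : IsIrrCharacter (𝒞 × S) (fun p => (((ℓ.comp φ) p : ℂˣ) : ℂ) ^ j * γ.1 p.1) :=
    twist_irr (ℓ.comp φ) j hγ
  obtain ⟨k, hk⟩ := classInner_isCharacter_nat hΨ (isCharacter_of_isIrrCharacter hΘ)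
  refine ⟨k, ?_⟩
  have hC0 : (Nat.card 𝒞 : ℂ) ≠ 0 := by
    have : 0 < Nat.card 𝒞 := Nat.card_pos
    exact_mod_cast this.ne'
  have hS0 : (Nat.card S : ℂ) ≠ 0 := by
    have : 0 < Nat.card S := Nat.card_pos
    exact_mod_cast this.ne'
  have hℓ : ∀ p : 𝒞 × S, (ℓ.comp φ) p = ℓ (p.2 : Γ) := by
    intro p
    rw [MonoidHom.comp_apply, hφ, map_mul, (hker _).mpr p.1.2.1, one_mul]
  rw [← hk]
  simp only [classInner, Nat.card_prod, Fintype.sum_prod_type, hℓ, hφ]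
  rw [Finset.sum_comm]
  push_cast
  rw [Finset.mul_sum, Finset.mul_sum]
  refine Finset.sum_congr rfl fun x _ => ?_
  have hterm : ∀ c : 𝒞, X ((c : Γ) * (x : Γ)) * conj (((ℓ (x : Γ) : ℂˣ) : ℂ) ^ j * γ.1 c) =
      conj (((ℓ (x : Γ) : ℂˣ) : ℂ) ^ j) * (X ((c : Γ) * (x : Γ)) * conj (γ.1 c)) := by
    intro c
    rw [map_mul]
    ring
  simp only [hterm, ← Finset.mul_sum]
  field_simp

end Setup

end Cfsg.Agent.Glaub
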