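import Mathlib
import Cfsg.Agent.Lib.Glaub.Semi

/-!
# Characters and cyclic quotients (lead): coset sums for a normal subgroup with cyclic quotient
-/

set_option autoImplicit false
set_option linter.style.haveILetI false

namespace Cfsg.Agent.Glaub.Cyc

open Cfsg Cfsg.Agent.H4 Cfsg.Agent.Glaub
open scoped ComplexConjugate

universe u

variable {Γ : Type u} [Group Γ] {G : Subgroup Γ}

/-- A linear character of `Γ` with kernel exactly `G`, for `Γ / G` cyclic. -/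
theorem exists_lin [Finite Γ] [hG : G.Normal] (hcyc : IsCyclic (Γ ⧸ G)) :
    ∃ (ℓ : Γ →* ℂˣ) (x₀ : Γ), (∀ y, ℓ y = 1 ↔ y ∈ G) ∧ (∀ y, ℓ y ^ G.index = 1) ∧
      (∀ y : Γ, ∃ k : ℕ, y * (x₀ ^ k)⁻¹ ∈ G) ∧ (∀ i : ℕ, x₀ ^ i ∈ G → G.index ∣ i) := by
  obtain ⟨g0, hg0⟩ := isCyclic_iff_exists_zpowers_eq_top.mp hcyc
  have hgen : ∀ x : Γ ⧸ G, x ∈ Subgroup.zpowers g0 := fun x => hg0 ▸ Subgroup.mem_top x
  set m := G.index with hm
  have hm0 : m ≠ 0 := Subgroup.index_ne_zero_of_finite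
  have hord : orderOf g0 = m := by
    rw [hm, Subgroup.index_eq_card]
    exact orderOf_eq_card_of_forall_mem_zpowers hgen
  obtain ⟨ω, hω⟩ : ∃ ω : ℂˣ, orderOf ω = m := by
    have hp := Complex.isPrimitiveRoot_exp m hm0
    have hne : Complex.exp (2 * Real.pi * Complex.I / m) ≠ 0 := Complex.exp_ne_zero _
    refine ⟨Units.mk0 _ hne, ?_⟩
    have hp' : IsPrimitiveRoot (Units.mk0 _ hne) m :=
      IsPrimitiveRoot.coe_units_iff.mp (by simpa using hp)
    exact hp'.eq_orderOf.symm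
  have hdvd : orderOf ω ∣ orderOf g0 := by rw [hω, hord]
  set ℓ' : Γ ⧸ G →* ℂˣ := monoidHomOfForallMemZpowers hgen hdvd with hℓ'
  have hgenval : ℓ' g0 = ω := monoidHomOfForallMemZpowers_apply_gen hgen hdvd
  obtain ⟨x₀, rfl⟩ := QuotientGroup.mk_surjective g0
  refine ⟨ℓ'.comp (QuotientGroup.mk' G), x₀, ?_, ?_, ?_, ?_⟩
  · intro y
    rw [MonoidHom.comp_apply, QuotientGroup.mk'_apply]
    constructor
    · intro hy
      obtain ⟨j, hj⟩ := Subgroup.mem_zpowers_iff.mp (hgen (QuotientGroup.mk y))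
      rw [← hj, map_zpow, hgenval] at hy
      have h1 : (orderOf ω : ℤ) ∣ j := orderOf_dvd_iff_zpow_eq_one.mpr hy
      rw [hω, ← hord] at h1
      have h2 : (QuotientGroup.mk x₀ : Γ ⧸ G) ^ j = 1 := orderOf_dvd_iff_zpow_eq_one.mp h1
      rw [hj] at h2
      exact (QuotientGroup.eq_one_iff y).mp h2
    · intro hy
      rw [(QuotientGroup.eq_one_iff y).mpr hy, map_one]
  · intro y
    rw [MonoidHom.comp_apply, ← map_pow]
    obtain ⟨j, hj⟩ := Subgroup.mem_zpowers_iff.mp (hgen (QuotientGroup.mk' G y))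
    rw [← hj, ← zpow_natCast, ← zpow_mul, mul_comm, zpow_mul, zpow_natCast, ← hord,
      pow_orderOf_eq_one, one_zpow, map_one]
  · intro y
    have hy := hgen (QuotientGroup.mk y)
    haveI : Finite (Γ ⧸ G) := inferInstance
    rw [← mem_powers_iff_mem_zpowers] at hy
    obtain ⟨k, hk⟩ := (Submonoid.mem_powers_iff _ _).mp hy
    refine ⟨k, ?_⟩
    rw [← QuotientGroup.eq_one_iff, QuotientGroup.mk_mul, QuotientGroup.mk_inv,
      QuotientGroup.mk_pow, hk, mul_inv_cancel]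
  · intro i hi
    have h1 : (QuotientGroup.mk x₀ : Γ ⧸ G) ^ i = 1 := by
      rw [← QuotientGroup.mk_pow]
      exact (QuotientGroup.eq_one_iff _).mpr hi
    rw [← hord]
    exact orderOf_dvd_of_pow_eq_one h1

/-- The sum of the powers of a linear character with kernel `G`. -/
theorem sum_lin (m : ℕ) (ℓ : Γ →* ℂˣ) (hker : ∀ y, ℓ y = 1 ↔ y ∈ G)
    (hpow : ∀ y, ℓ y ^ m = 1) (y : Γ) [Decidable (y ∈ G)] :
    ∑ i ∈ Finset.range m, ((ℓ y : ℂˣ) : ℂ) ^ i = if y ∈ G then (m : ℂ) else 0 := by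
  split_ifs with hy
  · rw [(hker y).mpr hy]; simp
  · have hne : ((ℓ y : ℂˣ) : ℂ) ≠ 1 := fun h1 => hy ((hker y).mp (Units.ext h1))
    rw [geom_sum_eq hne]
    have : ((ℓ y : ℂˣ) : ℂ) ^ m = 1 := by
      rw [← Units.val_pow_eq_pow_val, hpow]; rfl
    rw [this, sub_self, zero_div]

theorem lin_conj (m : ℕ) (hm : m ≠ 0) (ℓ : Γ →* ℂˣ) (hpow : ∀ y, ℓ y ^ m = 1) (x : Γ) :
    conj ((ℓ x : ℂˣ) : ℂ) = ((ℓ x⁻¹ : ℂˣ) : ℂ) := by
  have h1 : ((ℓ x : ℂˣ) : ℂ) ^ m = 1 := by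
    rw [← Units.val_pow_eq_pow_val, hpow]; rfl
  have hnorm : ‖((ℓ x : ℂˣ) : ℂ)‖ = 1 := Complex.norm_eq_one_of_pow_eq_one h1 hm
  rw [← RCLike.inv_eq_conj hnorm, map_inv, Units.val_inv_eq_inv_val]

/-- The coset inner product formula. -/
theorem coset_inner [Fintype Γ] [Fintype G] (m : ℕ) (ℓ : Γ →* ℂˣ) (hker : ∀ y, ℓ y = 1 ↔ y ∈ G)
    (hpow : ∀ y, ℓ y ^ m = 1) (hcard : Nat.card Γ = Nat.card G * m)
    (A B : Γ → ℂ) (t : Γ) :
    ∑ u : G, A (u * t) * conj (B (u * t)) =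
      (Nat.card G : ℂ) * ∑ i ∈ Finset.range m,
        ((ℓ t : ℂˣ) : ℂ) ^ i * classInner A (fun x => ((ℓ x : ℂˣ) : ℂ) ^ i * B x) := by
  classical
  have hΓ0 : Nat.card Γ ≠ 0 := Nat.card_pos.ne'
  have hS0 : m ≠ 0 := fun h0 => hΓ0 (by rw [hcard, h0, mul_zero])
  have hG0 : Nat.card G ≠ 0 := fun h0 => hΓ0 (by rw [hcard, h0, zero_mul])
  have key : ∀ x, ∑ i ∈ Finset.range m, ((ℓ t : ℂˣ) : ℂ) ^ i *
      (A x * conj (((ℓ x : ℂˣ) : ℂ) ^ i * B x)) =
      A x * conj (B x) * (if t * x⁻¹ ∈ G then (m : ℂ) else 0) := by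
    intro x
    rw [← sum_lin m ℓ hker hpow (t * x⁻¹), Finset.mul_sum]
    refine Finset.sum_congr rfl fun i _ => ?_
    rw [map_mul, map_pow, lin_conj m hS0 ℓ hpow, map_mul ℓ, Units.val_mul, mul_pow]
    ring
  have e1 : ∑ i ∈ Finset.range m, ((ℓ t : ℂˣ) : ℂ) ^ i *
      classInner A (fun x => ((ℓ x : ℂˣ) : ℂ) ^ i * B x) =
      (Nat.card Γ : ℂ)⁻¹ *
        ∑ x : Γ, A x * conj (B x) * (if t * x⁻¹ ∈ G then (m : ℂ) else 0) := by
    calc _ = ∑ i ∈ Finset.range m, ∑ x : Γ, (Nat.card Γ : ℂ)⁻¹ *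
          (((ℓ t : ℂˣ) : ℂ) ^ i * (A x * conj (((ℓ x : ℂˣ) : ℂ) ^ i * B x))) := by
          refine Finset.sum_congr rfl fun i _ => ?_
          simp only [classInner]
          rw [Finset.mul_sum, Finset.mul_sum]
          refine Finset.sum_congr rfl fun x _ => ?_
          ring
      _ = ∑ x : Γ, (Nat.card Γ : ℂ)⁻¹ * ∑ i ∈ Finset.range m,
          (((ℓ t : ℂˣ) : ℂ) ^ i * (A x * conj (((ℓ x : ℂˣ) : ℂ) ^ i * B x))) := by
          rw [Finset.sum_comm]
          refine Finset.sum_congr rfl fun x _ => ?_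
          rw [Finset.mul_sum]
      _ = _ := by
          rw [Finset.mul_sum]
          refine Finset.sum_congr rfl fun x _ => ?_
          rw [key]
  have e2 : ∑ x : Γ, A x * conj (B x) * (if t * x⁻¹ ∈ G then (m : ℂ) else 0) =
      (m : ℂ) * ∑ u : G, A (u * t) * conj (B (u * t)) := by
    rw [Finset.mul_sum]
    have : ∀ x : Γ, A x * conj (B x) * (if t * x⁻¹ ∈ G then (m : ℂ) else 0) =
        if x * t⁻¹ ∈ G then (m : ℂ) * (A x * conj (B x)) else 0 := by
      intro x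
      have hiff : t * x⁻¹ ∈ G ↔ x * t⁻¹ ∈ G := by
        constructor <;> intro hh <;> simpa using G.inv_mem hh
      by_cases hx : x * t⁻¹ ∈ G
      · rw [if_pos hx, if_pos (hiff.mpr hx)]; ring
      · rw [if_neg hx, if_neg (fun h' => hx (hiff.mp h')), mul_zero]
    simp_rw [this]
    rw [← Finset.sum_filter]
    symm
    refine Finset.sum_bij (fun (u : G) _ => (u : Γ) * t) ?_ ?_ ?_ ?_
    · intro u _
      rw [Finset.mem_filter]
      exact ⟨Finset.mem_univ _, by rw [mul_inv_cancel_right]; exact u.2⟩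
    · intro u _ v _ huv
      exact Subtype.ext (mul_right_cancel huv)
    · intro x hx
      rw [Finset.mem_filter] at hx
      exact ⟨⟨x * t⁻¹, hx.2⟩, Finset.mem_univ _, by simp⟩
    · intro u _; rfl
  rw [e1, e2, hcard]
  have hS0' : (m : ℂ) ≠ 0 := by exact_mod_cast hS0
  have hG0' : (Nat.card G : ℂ) ≠ 0 := by exact_mod_cast hG0
  push_cast
  field_simp

/-- The norm of an extension on every coset of `G`. -/
theorem coset_norm [Fintype Γ] [Fintype G] (m : ℕ) (ℓ : Γ →* ℂˣ) (hker : ∀ y, ℓ y = 1 ↔ y ∈ G)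
    (hpow : ∀ y, ℓ y ^ m = 1) (hcard : Nat.card Γ = Nat.card G * m) {X : Γ → ℂ}
    (hX : IsIrrCharacter Γ X) (hXG : IsIrrCharacter G (fun g : G => X g)) (t : Γ) :
    ∑ u : G, X (u * t) * conj (X (u * t)) = (Nat.card G : ℂ) := by
  classical
  have hΓ0 : Nat.card Γ ≠ 0 := Nat.card_pos.ne'
  have hm0 : m ≠ 0 := fun h0 => hΓ0 (by rw [hcard, h0, mul_zero])
  have hG0 : (Nat.card G : ℂ) ≠ 0 := by
    have : 0 < Nat.card G := Nat.card_pos
    exact_mod_cast this.ne'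
  set a : ℕ → ℕ := fun i =>
    if (⟨X, hX⟩ : IrrCharacter Γ) = ⟨_, twist_irr ℓ i hX⟩ then 1 else 0 with ha
  have hinner : ∀ i, classInner X (fun x => ((ℓ x : ℂˣ) : ℂ) ^ i * X x) = (a i : ℂ) := by
    intro i
    have h1 := irr_inner (⟨X, hX⟩ : IrrCharacter Γ) ⟨_, twist_irr ℓ i hX⟩
    simp only at h1
    rw [h1]
    simp only [ha]
    by_cases hc : (⟨X, hX⟩ : IrrCharacter Γ) = ⟨_, twist_irr ℓ i hX⟩
    · rw [if_pos hc, if_pos hc]; simp
    · rw [if_neg hc, if_neg hc]; simp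
  have h1 := coset_inner m ℓ hker hpow hcard X X (1 : Γ)
  have h2 : ∑ u : G, X (u * 1) * conj (X (u * 1)) = (Nat.card G : ℂ) := by
    have h3 := irr_inner_self (⟨_, hXG⟩ : IrrCharacter G)
    simp only [classInner] at h3
    simp only [mul_one]
    exact ((inv_mul_eq_one₀ hG0).mp h3).symm
  rw [h2] at h1
  have h4 : ∑ i ∈ Finset.range m, a i = 1 := by
    have h5 : (Nat.card G : ℂ) * (∑ i ∈ Finset.range m,
        ((ℓ 1 : ℂˣ) : ℂ) ^ i * classInner X (fun x => ((ℓ x : ℂˣ) : ℂ) ^ i * X x)) =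
        (Nat.card G : ℂ) * 1 := by
      rw [mul_one]; exact h1.symm
    have h6 := mul_left_cancel₀ hG0 h5
    have h7 : ∑ i ∈ Finset.range m, ((a i : ℕ) : ℂ) = 1 := by
      rw [← h6]
      refine Finset.sum_congr rfl fun i _ => ?_
      rw [map_one, Units.val_one, one_pow, one_mul, hinner]
    exact_mod_cast h7
  have hmem : 0 ∈ Finset.range m := Finset.mem_range.mpr (Nat.pos_of_ne_zero hm0)
  have ha0 : a 0 = 1 := by
    rw [ha]
    simp
  have h7 := Finset.add_sum_erase (Finset.range m) a hmem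
  rw [h4, ha0] at h7
  have h8 : ∑ i ∈ (Finset.range m).erase 0, a i = 0 := by omega
  have h9 : ∀ i ∈ (Finset.range m).erase 0, a i = 0 :=
    Finset.sum_eq_zero_iff.mp h8
  rw [coset_inner m ℓ hker hpow hcard X X t]
  rw [Finset.sum_eq_single 0]
  · rw [pow_zero, one_mul, hinner, ha0]; simp
  · intro i hi hi0
    rw [hinner, h9 i (Finset.mem_erase.mpr ⟨hi0, hi⟩)]; simp
  · intro h0; exact absurd hmem h0

/-- Orthogonality of the powers of a primitive root of unity. -/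
theorem sum_root_pow (m : ℕ) (ω : ℂ) (hω : ω ^ m = 1) (hprim : ∀ i, 0 < i → i < m → ω ^ i ≠ 1)
    (i j : ℕ) (hi : i < m) (hj : j < m) :
    ∑ k ∈ Finset.range m, ω ^ (i * k) * conj (ω ^ (j * k)) = if i = j then (m : ℂ) else 0 := by
  have hm0 : m ≠ 0 := by omega
  have hnorm : ‖ω‖ = 1 := Complex.norm_eq_one_of_pow_eq_one hω hm0
  have hω0 : ω ≠ 0 := fun h0 => by rw [h0, norm_zero] at hnorm; exact zero_ne_one hnorm
  have hconj : conj ω = ω⁻¹ := (RCLike.inv_eq_conj hnorm).symm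
  have hterm : ∀ k, ω ^ (i * k) * conj (ω ^ (j * k)) = (ω ^ i * (ω⁻¹) ^ j) ^ k := by
    intro k
    rw [map_pow, hconj, mul_pow, ← pow_mul, ← pow_mul]
  simp only [hterm]
  split_ifs with hij
  · subst hij
    have : ω ^ i * (ω⁻¹) ^ i = 1 := by
      rw [← mul_pow, mul_inv_cancel₀ hω0, one_pow]
    rw [this]
    simp
  · have hne : ω ^ i * (ω⁻¹) ^ j ≠ 1 := by
      intro h1
      rcases Nat.lt_or_gt_of_ne hij with hlt | hgt
      · -- i < j : ω^(j-i) = 1
        apply hprim (j - i) (by omega) (by omega)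
        have : ω ^ j = ω ^ i := by
          have h2 : ω ^ i * (ω⁻¹) ^ j * ω ^ j = ω ^ j := by rw [h1, one_mul]
          rw [mul_assoc, ← mul_pow, inv_mul_cancel₀ hω0, one_pow, mul_one] at h2
          exact h2.symm
        have h3 : ω ^ (j - i) * ω ^ i = ω ^ i := by
          rw [← pow_add, Nat.sub_add_cancel hlt.le, this]
        exact mul_right_cancel₀ (pow_ne_zero i hω0) (by rw [h3, one_mul])
      · apply hprim (i - j) (by omega) (by omega)
        have : ω ^ i = ω ^ j := by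
          have h2 : ω ^ i * (ω⁻¹) ^ j * ω ^ j = ω ^ j := by rw [h1, one_mul]
          rw [mul_assoc, ← mul_pow, inv_mul_cancel₀ hω0, one_pow, mul_one] at h2
          exact h2
        have h3 : ω ^ (i - j) * ω ^ j = ω ^ j := by
          rw [← pow_add, Nat.sub_add_cancel hgt.le, this]
        exact mul_right_cancel₀ (pow_ne_zero j hω0) (by rw [h3, one_mul])
    rw [geom_sum_eq hne]
    have : (ω ^ i * (ω⁻¹) ^ j) ^ m = 1 := by
      rw [mul_pow, ← pow_mul, ← pow_mul, mul_comm i m, mul_comm j m, pow_mul, pow_mul, hω,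
        inv_pow, hω]
      simp
    rw [this, sub_self, zero_div]

/-- A function on `ℤ/m` with integral Fourier coefficients and values of absolute value at most
`1` off the origin has coefficients all equal except possibly one, differing by `1`. -/
theorem root_lattice (m : ℕ) (hmpos : 0 < m) (ω : ℂ) (hω : ω ^ m = 1)
    (hprim : ∀ i, 0 < i → i < m → ω ^ i ≠ 1) (a : ℕ → ℤ)
    (hle : ∀ k, 0 < k → k < m →
      ‖∑ i ∈ Finset.range m, (a i : ℂ) * ω ^ (i * k)‖ ≤ 1) :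
    ∃ j₁ ∈ Finset.range m, ∃ t : ℤ, (t = 0 ∨ t = 1 ∨ t = -1) ∧
      ∀ j ∈ Finset.range m, j ≠ j₁ → a j = a j₁ + t := by
  classical
  set F : ℕ → ℂ := fun k => ∑ i ∈ Finset.range m, (a i : ℂ) * ω ^ (i * k) with hF
  -- Parseval
  have hpars : ∑ k ∈ Finset.range m, F k * conj (F k) =
      (m : ℂ) * ∑ i ∈ Finset.range m, (a i : ℂ) ^ 2 := by
    have h1 : ∀ k, F k * conj (F k) = ∑ i ∈ Finset.range m, ∑ j ∈ Finset.range m,
        (a i : ℂ) * (a j : ℂ) * (ω ^ (i * k) * conj (ω ^ (j * k))) := by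
      intro k
      simp only [hF, map_sum]
      rw [Finset.sum_mul_sum]
      refine Finset.sum_congr rfl fun i _ => Finset.sum_congr rfl fun j _ => ?_
      rw [map_mul, map_intCast]
      ring
    simp only [h1]
    rw [Finset.sum_comm]
    have h2 : ∀ i ∈ Finset.range m, ∑ k ∈ Finset.range m, ∑ j ∈ Finset.range m,
        (a i : ℂ) * (a j : ℂ) * (ω ^ (i * k) * conj (ω ^ (j * k))) = (m : ℂ) * (a i : ℂ) ^ 2 := by
      intro i hi
      rw [Finset.sum_comm]
      have h3 : ∀ j ∈ Finset.range m, ∑ k ∈ Finset.range m,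
          (a i : ℂ) * (a j : ℂ) * (ω ^ (i * k) * conj (ω ^ (j * k))) =
          if i = j then (a i : ℂ) * (a j : ℂ) * (m : ℂ) else 0 := by
        intro j hj
        rw [← Finset.mul_sum, sum_root_pow m ω hω hprim i j (Finset.mem_range.mp hi)
          (Finset.mem_range.mp hj)]
        split_ifs <;> simp
      rw [Finset.sum_congr rfl h3, Finset.sum_ite_eq, if_pos hi]
      ring
    rw [Finset.sum_congr rfl h2, Finset.mul_sum]
  have hF0 : F 0 = ∑ i ∈ Finset.range m, (a i : ℂ) := by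
    simp [hF]
  have hmem : 0 ∈ Finset.range m := Finset.mem_range.mpr hmpos
  have hsplit := Finset.add_sum_erase (Finset.range m) (fun k => F k * conj (F k)) hmem
  -- real bound
  have hbound : ∀ k ∈ (Finset.range m).erase 0, (F k * conj (F k)).re ≤ 1 := by
    intro k hk
    have hk0 : k ≠ 0 := Finset.ne_of_mem_erase hk
    have hkm : k < m := Finset.mem_range.mp (Finset.mem_of_mem_erase hk)
    have h1 := hle k (Nat.pos_of_ne_zero hk0) hkm
    rw [Complex.mul_conj, Complex.ofReal_re, Complex.normSq_eq_norm_sq]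
    have h0 : 0 ≤ ‖F k‖ := norm_nonneg _
    nlinarith
  have hN : (m : ℤ) * ∑ j ∈ Finset.range m, a j ^ 2 - (∑ j ∈ Finset.range m, a j) ^ 2 ≤ m - 1 := by
    have h1 : (((m : ℤ) * ∑ j ∈ Finset.range m, a j ^ 2 - (∑ j ∈ Finset.range m, a j) ^ 2 : ℤ) : ℂ)
        = ∑ k ∈ (Finset.range m).erase 0, F k * conj (F k) := by
      have h3 : conj (F 0) = F 0 := by
        rw [hF0, map_sum]
        exact Finset.sum_congr rfl fun j _ => map_intCast _ _
      have h4 := hsplit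
      rw [hpars, h3, hF0] at h4
      push_cast
      linear_combination (-1 : ℂ) * h4
    have h2 : ((((m : ℤ) * ∑ j ∈ Finset.range m, a j ^ 2 - (∑ j ∈ Finset.range m, a j) ^ 2 : ℤ) : ℂ)).re
        ≤ ((m : ℝ) - 1) := by
      rw [h1, Complex.re_sum]
      calc ∑ k ∈ (Finset.range m).erase 0, (F k * conj (F k)).re
          ≤ ∑ _k ∈ (Finset.range m).erase 0, (1 : ℝ) := Finset.sum_le_sum hbound
        _ = (m : ℝ) - 1 := by
          rw [Finset.sum_const, Finset.card_erase_of_mem hmem, Finset.card_range, nsmul_eq_mul,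
            mul_one, Nat.cast_sub hmpos, Nat.cast_one]
    rw [Complex.intCast_re] at h2
    have h5 : (((m : ℤ) * ∑ j ∈ Finset.range m, a j ^ 2 - (∑ j ∈ Finset.range m, a j) ^ 2 : ℤ) : ℝ)
        ≤ (((m : ℤ) - 1 : ℤ) : ℝ) := by
      push_cast
      push_cast at h2
      exact h2
    exact_mod_cast h5
  exact lattice m a hN

end Cfsg.Agent.Glaub.Cyc
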